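import Cfsg.Agent.Lib.Zassen.SolMain
import Cfsg.Agent.Lib.Zassen.CtxOf

/-!
# The quotient structure of Frobenius complements
-/

set_option autoImplicit false
set_option linter.unusedSectionVars false
set_option linter.style.haveILetI false

namespace Cfsg.Agent.Lib.Zassen.FCQuot

open Subgroup
open Cfsg
open Cfsg.Agent.Lib.Zassen.QuotU Cfsg.Agent.Lib.Zassen.SolQ Cfsg.Agent.Lib.Zassen.SolMain
open Cfsg.Agent.Lib.Zassen.Basic Cfsg.Agent.Lib.Zassen.Frames Cfsg.Agent.Lib.Zassen.Reduce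
open Cfsg.Agent.Lib.Zassen.Semi Cfsg.Agent.Lib.Zassen.Unique Cfsg.Agent.Lib.Zassen.Struct
open Cfsg.Agent.Lib.Zassen.CtxOf

universe u

/-- The occurrence as a Frobenius complement. -/
abbrev OccFC (G : Type u) [Group G] : Prop :=
  ∃ (L : Type) (_ : Group L) (_ : Finite L) (H : Subgroup L), IsFrobeniusComplement H ∧
    Nonempty (G ≃* H)

theorem nontrivial_of_occ {G : Type u} [Group G] (hFC : OccFC G) : Nontrivial G := by
  obtain ⟨L, _, _, H, hH, ⟨e⟩⟩ := hFC
  haveI : Nontrivial H := (Subgroup.nontrivial_iff_ne_bot H).mpr hH.1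
  exact e.toEquiv.nontrivial

/-- The Sylow structure of Frobenius complements. -/
theorem occ_H {G : Type u} [Group G] [Finite G] (hFC : OccFC G) : H2 G ∧ Hodd G := by
  haveI := nontrivial_of_occ hFC
  refine frob_act hFC (fun K _ _ _ act hfpf => ?_)
  by_cases h2 : 2 ∣ Nat.card G
  · obtain ⟨z, hz⟩ := exists_prime_orderOf_dvd_card' (p := 2) (G := G) h2
    have hz2 : z ^ 2 = 1 := by rw [← hz]; exact pow_orderOf_eq_one z
    have hz1 : z ≠ 1 := by
      rintro rfl
      rw [orderOf_one] at hz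
      omega
    refine comm_ctx (abelian_of_even act hfpf h2) act hfpf hz2 hz1 ?_
    intro E V _ _ _ _ _ _ r _ _ ρ C
    constructor
    · intro Q hQ
      rcases subgroup_alt C.fpf Q hQ with h | ⟨-, h⟩
      · exact Or.inl h
      · exact Or.inr h
    · intro q hq hq2 Q hQ
      haveI : Fact q.Prime := ⟨hq⟩
      rcases subgroup_alt C.fpf Q hQ with h | ⟨h, -⟩
      · exact h
      · exact absurd h hq2
  · haveI := isZGroup_of_odd act hfpf h2
    constructor
    · intro Q hQ
      exact Or.inl hQ.isCyclic_of_isZGroup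
    · intro q hq _ Q hQ
      haveI : Fact q.Prime := ⟨hq⟩
      exact hQ.isCyclic_of_isZGroup

/-- The non-solvable case. -/
theorem occ_nonsolvable {G : Type u} [Group G] [Finite G] (hFC : OccFC G)
    (hns : ¬ Group.IsSolvable G) : ∃ N : Subgroup G, N.Normal ∧ IsZGroup N ∧ QT N := by
  haveI := nontrivial_of_occ hFC
  refine frob_act hFC (fun K _ _ _ act hfpf => ?_)
  have h2 : 2 ∣ Nat.card G := by
    by_contra h2
    haveI := isZGroup_of_odd act hfpf h2
    exact hns inferInstance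
  obtain ⟨z, hz⟩ := exists_prime_orderOf_dvd_card' (p := 2) (G := G) h2
  have hz2 : z ^ 2 = 1 := by rw [← hz]; exact pow_orderOf_eq_one z
  have hz1 : z ≠ 1 := by
    rintro rfl
    rw [orderOf_one] at hz
    omega
  refine comm_ctx (abelian_of_even act hfpf h2) act hfpf hz2 hz1 ?_
  intro E V _ _ _ _ _ _ r _ _ ρ C
  obtain ⟨S, hSN, hSb, hSp⟩ := exists_perfect_sub hns
  obtain ⟨hT5, -⟩ := typ5_of_perfect C S hSb hSp
  obtain ⟨π, hs, hk⟩ := hT5
  obtain ⟨-, T, hTL, -, -, -, hZ⟩ := typ5_struct C hs hk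
  refine ⟨T.ker, inferInstance, hZ, ?_⟩
  have hle : alternatingGroup (Fin 5) ≤ T.range := by
    intro y hy
    obtain ⟨l, hl⟩ := hs ⟨y, hy⟩
    refine ⟨l, ?_⟩
    rw [hTL l, phi_apply, hl]
  have hidx : T.range.index ∣ 2 := by
    have h1 := Subgroup.index_dvd_of_le hle
    rwa [alternatingGroup.index_eq_two] at h1
  rcases (Nat.dvd_prime Nat.prime_two).mp hidx with h | h
  · right; right; right; right; right
    exact ⟨T, MonoidHom.range_eq_top.mp (Subgroup.index_eq_one.mp h), rfl⟩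
  · have halt := Equiv.Perm.eq_alternatingGroup_of_index_eq_two h
    have hmem : ∀ g, T g ∈ alternatingGroup (Fin 5) := fun g => halt ▸ ⟨g, rfl⟩
    right; right; right; right; left
    refine ⟨T.codRestrict _ hmem, ?_, ?_⟩
    · rintro ⟨y, hy⟩
      rw [← halt] at hy
      obtain ⟨g, rfl⟩ := hy
      exact ⟨g, rfl⟩
    · ext g
      simp only [MonoidHom.mem_ker]
      constructor
      · intro h1
        exact congrArg Subtype.val h1
      · intro h1
        exact Subtype.ext h1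

/-- The existence and uniqueness. -/
theorem occ_main {G : Type u} [Group G] [Finite G] (hFC : OccFC G) :
    ∃! N : Subgroup G, N.Normal ∧ IsZGroup N ∧ QT N := by
  obtain ⟨h2, hodd⟩ := occ_H hFC
  have hex : ∃ N : Subgroup G, N.Normal ∧ IsZGroup N ∧ QT N := by
    by_cases hs : Group.IsSolvable G
    · exact sol_exists _ G rfl h2 hodd
    · exact occ_nonsolvable hFC hs
  obtain ⟨N, hN⟩ := hex
  refine ⟨N, hN, ?_⟩
  rintro M ⟨hM1, hM2, hM3⟩
  refine unique_quot ?_ hM1 hN.1 hM2 hN.2.1 hM3 hN.2.2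
  intro P
  rcases h2 P P.2 with h | ⟨n, ⟨e⟩⟩
  · exact twoGen_of_cyclic _
  · haveI : NeZero (2 ^ n) := ⟨by positivity⟩
    exact twoGen_of_equiv e (twoGen_quat _)

end Cfsg.Agent.Lib.Zassen.FCQuot
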