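import Mathlib

/-!
# Uniqueness of the normal subgroup with cyclic Sylow subgroups and prescribed quotient
-/

set_option autoImplicit false
set_option linter.unusedSectionVars false
set_option linter.style.haveILetI false

namespace Cfsg.Agent.Lib.Zassen.QuotU

open Subgroup
open scoped commutatorElement

/-- Commuting involutions in a group with cyclic Sylow subgroups coincide. -/
theorem invol_eq_of_z {K : Type*} [Group K] [Finite K] [IsZGroup K] {c d : K}
    (hc : c ^ 2 = 1) (hd : d ^ 2 = 1) (hcd : c * d = d * c) (hc1 : c ≠ 1) (hd1 : d ≠ 1) :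
    c = d := by
  classical
  by_contra hne
  have hcc : c * c = 1 := by rw [← pow_two]; exact hc
  have hdd : d * d = 1 := by rw [← pow_two]; exact hd
  have h1 : c * (c * d) = d := by rw [← mul_assoc, hcc, one_mul]
  have h2 : d * (c * d) = c := by rw [hcd, ← mul_assoc, hdd, one_mul]
  have h3 : c * d * c = d := by rw [hcd, mul_assoc, hcc, mul_one]
  have h4 : c * d * d = c := by rw [mul_assoc, hdd, mul_one]
  have h5 : c * d * (c * d) = 1 := by rw [← mul_assoc, h3, hdd]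
  have h6 : c⁻¹ = c := inv_eq_of_mul_eq_one_left hcc
  have h7 : d⁻¹ = d := inv_eq_of_mul_eq_one_left hdd
  let V : Subgroup K :=
    { carrier := {x | x = 1 ∨ x = c ∨ x = d ∨ x = c * d}
      one_mem' := Or.inl rfl
      mul_mem' := by
        rintro a b (rfl | rfl | rfl | rfl) (rfl | rfl | rfl | rfl) <;>
          simp only [Set.mem_ofPred_eq, one_mul, mul_one, hcc, hdd, h1, h2, h3, h4, h5, ← hcd] <;>
          simp
      inv_mem' := by
        rintro a (rfl | rfl | rfl | rfl)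
        · simp
        · simp [h6]
        · simp [h7]
        · right; right; right
          rw [mul_inv_rev, h6, h7, hcd] }
  have hV : ∀ x : V, x ^ 2 = 1 := by
    rintro ⟨x, hx⟩
    apply Subtype.ext
    change x ^ 2 = 1
    rw [pow_two]
    rcases hx with rfl | rfl | rfl | rfl
    · simp
    · exact hcc
    · exact hdd
    · exact h5
  haveI : Fact (Nat.Prime 2) := ⟨Nat.prime_two⟩
  have hP : IsPGroup 2 V := fun x => ⟨1, by simpa using hV x⟩
  haveI : IsCyclic V := hP.isCyclic_of_isZGroup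
  haveI : Fintype V := Fintype.ofFinite V
  have hle := IsCyclic.card_pow_eq_one_le (α := V) (n := 2) (by norm_num)
  have hsub : ({1, ⟨c, Or.inr (Or.inl rfl)⟩, ⟨d, Or.inr (Or.inr (Or.inl rfl))⟩} : Finset V) ⊆
      Finset.univ.filter (fun a : V => a ^ 2 = 1) := by
    intro x _
    simp [hV x]
  have hcard : ({1, ⟨c, Or.inr (Or.inl rfl)⟩, ⟨d, Or.inr (Or.inr (Or.inl rfl))⟩} : Finset V).card = 3 := by
    rw [Finset.card_insert_of_notMem, Finset.card_insert_of_notMem, Finset.card_singleton]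
    · simp only [Finset.mem_singleton]
      intro h
      exact hne (congrArg Subtype.val h)
    · simp only [Finset.mem_insert, Finset.mem_singleton, not_or]
      constructor
      · intro h
        exact hc1 (congrArg Subtype.val h).symm
      · intro h
        exact hd1 (congrArg Subtype.val h).symm
  have := Finset.card_le_card hsub
  omega

/-- No nontrivial normal subgroup with cyclic Sylow subgroups. -/
def Rigid (Q : Type*) [Group Q] : Prop :=
  ∀ K : Subgroup Q, K.Normal → IsZGroup K → K = ⊥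

theorem rigid_of_mem {Q : Type*} [Group Q] [Finite Q] (c d : Q) (hc : c ^ 2 = 1) (hd : d ^ 2 = 1)
    (hcd : c * d = d * c) (hc1 : c ≠ 1) (hd1 : d ≠ 1) (hne : c ≠ d)
    (hm : ∀ K : Subgroup Q, K.Normal → K ≠ ⊥ → c ∈ K ∧ d ∈ K) : Rigid Q := by
  intro K hK hZ
  by_contra hb
  obtain ⟨h1, h2⟩ := hm K hK hb
  haveI := hZ
  have := invol_eq_of_z (K := K) (c := ⟨c, h1⟩) (d := ⟨d, h2⟩) (Subtype.ext hc) (Subtype.ext hd)
    (Subtype.ext hcd) (fun h => hc1 (congrArg Subtype.val h)) (fun h => hd1 (congrArg Subtype.val h))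
  exact hne (congrArg Subtype.val this)

theorem commutator_mem_of_normal {Q : Type*} [Group Q] {K : Subgroup Q} (hK : K.Normal) {x : Q}
    (hx : x ∈ K) (y : Q) : ⁅x, y⁆ ∈ K := by
  have e : ⁅x, y⁆ = x * (y * x⁻¹ * y⁻¹) := by
    rw [commutatorElement_def]
    group
  rw [e]
  exact K.mul_mem hx (hK.conj_mem _ (K.inv_mem hx) y)

theorem exists_ne_one_of_ne_bot {Q : Type*} [Group Q] {K : Subgroup Q} (hb : K ≠ ⊥) :
    ∃ g, g ∈ K ∧ g ≠ 1 := by
  obtain ⟨x, hx⟩ := (Subgroup.ne_bot_iff_exists_ne_one).mp hb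
  exact ⟨x, x.2, fun h => hx (Subtype.ext h)⟩

/-- Commutators are even. -/
theorem sign_commutator {n : ℕ} (g h : Equiv.Perm (Fin n)) : ⁅g, h⁆ ∈ alternatingGroup (Fin n) := by
  rw [Equiv.Perm.mem_alternatingGroup, commutatorElement_def]
  simp only [map_mul, map_inv]
  rw [mul_comm (Equiv.Perm.sign g), mul_inv_cancel_right, mul_inv_cancel]

/-- A normal subgroup of a symmetric group with trivial centre meets the alternating group. -/
theorem subgroupOf_ne_bot {n : ℕ} (hn : ∀ g : Equiv.Perm (Fin n), g ≠ 1 → ∃ h : Equiv.Perm (Fin n), ⁅g, h⁆ ≠ 1)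
    {K : Subgroup (Equiv.Perm (Fin n))} (hK : K.Normal) (hb : K ≠ ⊥) :
    K.subgroupOf (alternatingGroup (Fin n)) ≠ ⊥ := by
  obtain ⟨g, hg, hg1⟩ := exists_ne_one_of_ne_bot hb
  obtain ⟨h, hh⟩ := hn g hg1
  intro e
  have : (⟨⁅g, h⁆, sign_commutator g h⟩ : alternatingGroup (Fin n)) ∈
      K.subgroupOf (alternatingGroup (Fin n)) :=
    Subgroup.mem_subgroupOf.mpr (commutator_mem_of_normal hK hg h)
  rw [e, mem_bot] at this
  exact hh (congrArg Subtype.val this)

/-- The standard involutions in `Sym(4)`. -/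
def c4 : Equiv.Perm (Fin 4) := Equiv.swap 0 1 * Equiv.swap 2 3
def d4 : Equiv.Perm (Fin 4) := Equiv.swap 0 2 * Equiv.swap 1 3

theorem c4_d4 : c4 ^ 2 = 1 ∧ d4 ^ 2 = 1 ∧ c4 * d4 = d4 * c4 ∧ c4 ≠ 1 ∧ d4 ≠ 1 ∧ c4 ≠ d4 := by
  decide

theorem c4_mem : c4 ∈ alternatingGroup (Fin 4) := Equiv.Perm.mem_alternatingGroup.mpr (by decide)
theorem d4_mem : d4 ∈ alternatingGroup (Fin 4) := Equiv.Perm.mem_alternatingGroup.mpr (by decide)

/-- The standard involutions in `Alt(4)`. -/
def c4' : alternatingGroup (Fin 4) := ⟨c4, c4_mem⟩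
def d4' : alternatingGroup (Fin 4) := ⟨d4, d4_mem⟩

set_option maxRecDepth 100000 in
theorem wA4c : ∀ g : alternatingGroup (Fin 4), g ≠ 1 → ∃ h₁ h₃ : alternatingGroup (Fin 4),
    h₃ * ⁅g, h₁⁆ * h₃⁻¹ = c4' := by decide +kernel

set_option maxRecDepth 100000 in
theorem wA4d : ∀ g : alternatingGroup (Fin 4), g ≠ 1 → ∃ h₁ h₃ : alternatingGroup (Fin 4),
    h₃ * ⁅g, h₁⁆ * h₃⁻¹ = d4' := by decide +kernel

theorem mem_of_normal_A4 (K : Subgroup (alternatingGroup (Fin 4))) (hK : K.Normal) (hb : K ≠ ⊥) :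
    c4' ∈ K ∧ d4' ∈ K := by
  obtain ⟨g, hg, hg1⟩ := exists_ne_one_of_ne_bot hb
  constructor
  · obtain ⟨h₁, h₃, e⟩ := wA4c g hg1
    rw [← e]
    exact hK.conj_mem _ (commutator_mem_of_normal hK hg _) _
  · obtain ⟨h₁, h₃, e⟩ := wA4d g hg1
    rw [← e]
    exact hK.conj_mem _ (commutator_mem_of_normal hK hg _) _

theorem rigid_A4 : Rigid (alternatingGroup (Fin 4)) := by
  obtain ⟨h1, h2, h3, h4, h5, h6⟩ := c4_d4
  exact rigid_of_mem c4' d4' (Subtype.ext h1) (Subtype.ext h2) (Subtype.ext h3)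
    (fun h => h4 (congrArg Subtype.val h)) (fun h => h5 (congrArg Subtype.val h))
    (fun h => h6 (congrArg Subtype.val h)) mem_of_normal_A4

set_option maxRecDepth 100000 in
theorem no_center4 : ∀ g : Equiv.Perm (Fin 4), g ≠ 1 → ∃ h : Equiv.Perm (Fin 4), ⁅g, h⁆ ≠ 1 := by
  decide +kernel

theorem rigid_S4 : Rigid (Equiv.Perm (Fin 4)) := by
  obtain ⟨h1, h2, h3, h4, h5, h6⟩ := c4_d4
  refine rigid_of_mem c4 d4 h1 h2 h3 h4 h5 h6 ?_
  intro K hK hb
  have h := mem_of_normal_A4 _ (hK.subgroupOf _) (subgroupOf_ne_bot no_center4 hK hb)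
  exact ⟨Subgroup.mem_subgroupOf.mp h.1, Subgroup.mem_subgroupOf.mp h.2⟩

/-- The standard involutions in `Alt(5)`. -/
def c5 : Equiv.Perm (Fin 5) := Equiv.swap 0 1 * Equiv.swap 2 3
def d5 : Equiv.Perm (Fin 5) := Equiv.swap 0 2 * Equiv.swap 1 3

theorem c5_d5 : c5 ^ 2 = 1 ∧ d5 ^ 2 = 1 ∧ c5 * d5 = d5 * c5 ∧ c5 ≠ 1 ∧ d5 ≠ 1 ∧ c5 ≠ d5 := by
  decide

theorem c5_mem : c5 ∈ alternatingGroup (Fin 5) := Equiv.Perm.mem_alternatingGroup.mpr (by decide)
theorem d5_mem : d5 ∈ alternatingGroup (Fin 5) := Equiv.Perm.mem_alternatingGroup.mpr (by decide)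

/-- The standard involutions in `Alt(5)`. -/
def c5' : alternatingGroup (Fin 5) := ⟨c5, c5_mem⟩
def d5' : alternatingGroup (Fin 5) := ⟨d5, d5_mem⟩

theorem mem_of_normal_A5 (K : Subgroup (alternatingGroup (Fin 5))) (hK : K.Normal) (hb : K ≠ ⊥) :
    c5' ∈ K ∧ d5' ∈ K := by
  rcases hK.eq_bot_or_eq_top with h | h
  · exact absurd h hb
  · rw [h]
    exact ⟨mem_top _, mem_top _⟩

theorem rigid_A5 : Rigid (alternatingGroup (Fin 5)) := by
  obtain ⟨h1, h2, h3, h4, h5, h6⟩ := c5_d5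
  exact rigid_of_mem c5' d5' (Subtype.ext h1) (Subtype.ext h2) (Subtype.ext h3)
    (fun h => h4 (congrArg Subtype.val h)) (fun h => h5 (congrArg Subtype.val h))
    (fun h => h6 (congrArg Subtype.val h)) mem_of_normal_A5

set_option maxRecDepth 100000 in
theorem no_center5 : ∀ g : Equiv.Perm (Fin 5), g ≠ 1 → ∃ h : Equiv.Perm (Fin 5), ⁅g, h⁆ ≠ 1 := by
  decide +kernel

theorem rigid_S5 : Rigid (Equiv.Perm (Fin 5)) := by
  obtain ⟨h1, h2, h3, h4, h5, h6⟩ := c5_d5
  refine rigid_of_mem c5 d5 h1 h2 h3 h4 h5 h6 ?_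
  intro K hK hb
  have h := mem_of_normal_A5 _ (hK.subgroupOf _) (subgroupOf_ne_bot no_center5 hK hb)
  exact ⟨Subgroup.mem_subgroupOf.mp h.1, Subgroup.mem_subgroupOf.mp h.2⟩

theorem not_z_v4 : ¬ IsZGroup (DihedralGroup 2) := by
  intro h
  haveI := h
  have := invol_eq_of_z (K := DihedralGroup 2) (c := DihedralGroup.r 1) (d := DihedralGroup.sr 0)
    (by decide) (by decide) (by decide) (by decide) (by decide)
  exact absurd this (by decide)

/-- The quotient types in the statement. -/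
def QT {G : Type*} [Group G] (N : Subgroup G) : Prop :=
  N = ⊤ ∨
  (∃ f : G →* DihedralGroup 2, Function.Surjective f ∧ f.ker = N) ∨
  (∃ f : G →* alternatingGroup (Fin 4), Function.Surjective f ∧ f.ker = N) ∨
  (∃ f : G →* Equiv.Perm (Fin 4), Function.Surjective f ∧ f.ker = N) ∨
  (∃ f : G →* alternatingGroup (Fin 5), Function.Surjective f ∧ f.ker = N) ∨
  (∃ f : G →* Equiv.Perm (Fin 5), Function.Surjective f ∧ f.ker = N)

/-- A rigid quotient. -/
def Rig {G : Type*} [Group G] (N : Subgroup G) : Prop :=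
  ∃ (Q : Type) (_ : Group Q) (_ : Finite Q) (f : G →* Q), Function.Surjective f ∧ f.ker = N ∧
    Rigid Q ∧ 12 ≤ Nat.card Q

theorem qt_cases {G : Type*} [Group G] {N : Subgroup G} (h : QT N) :
    N = ⊤ ∨ (∃ f : G →* DihedralGroup 2, Function.Surjective f ∧ f.ker = N) ∨ Rig N := by
  rcases h with h | h | ⟨f, h1, h2⟩ | ⟨f, h1, h2⟩ | ⟨f, h1, h2⟩ | ⟨f, h1, h2⟩
  · exact Or.inl h
  · exact Or.inr (Or.inl h)
  · refine Or.inr (Or.inr ⟨_, inferInstance, inferInstance, f, h1, h2, rigid_A4, ?_⟩)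
    rw [nat_card_alternatingGroup]
    simp [Nat.factorial]
  · refine Or.inr (Or.inr ⟨_, inferInstance, inferInstance, f, h1, h2, rigid_S4, ?_⟩)
    rw [Nat.card_eq_fintype_card, Fintype.card_perm]
    simp [Nat.factorial]
  · refine Or.inr (Or.inr ⟨_, inferInstance, inferInstance, f, h1, h2, rigid_A5, ?_⟩)
    rw [nat_card_alternatingGroup]
    simp [Nat.factorial]
  · refine Or.inr (Or.inr ⟨_, inferInstance, inferInstance, f, h1, h2, rigid_S5, ?_⟩)
    rw [Nat.card_eq_fintype_card, Fintype.card_perm]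
    simp [Nat.factorial]

theorem index_of_surj {G Q : Type*} [Group G] [Group Q] (f : G →* Q) (hf : Function.Surjective f) :
    f.ker.index = Nat.card Q := by
  rw [Subgroup.index_ker, MonoidHom.range_eq_top.mpr hf, Subgroup.card_top]

theorem le_of_rig {G : Type*} [Group G] [Finite G] {N K : Subgroup G} (h : Rig N) (hK : K.Normal)
    (hZ : IsZGroup K) : K ≤ N := by
  obtain ⟨Q, _, _, f, hf, rfl, hQ, -⟩ := h
  have h1 : (K.map f).Normal := hK.map f hf
  have h2 : IsZGroup (K.map f) := IsZGroup.of_surjective (f.subgroupMap_surjective K)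
  have h3 := hQ _ h1 h2
  rwa [Subgroup.map_eq_bot_iff] at h3

theorem index_of_rig {G : Type*} [Group G] {N : Subgroup G} (h : Rig N) : 12 ≤ N.index := by
  obtain ⟨Q, _, _, f, hf, rfl, -, hQ⟩ := h
  rwa [index_of_surj f hf]

/-- A group generated by two elements in a strong sense. -/
def TwoGen (P : Type*) [Group P] : Prop :=
  ∃ u v : P, ∀ w : P, ∃ i j : ℕ, w = u ^ i * v ^ j

theorem twoGen_of_cyclic (P : Type*) [Group P] [Finite P] [IsCyclic P] : TwoGen P := by
  obtain ⟨g, hg⟩ := IsCyclic.exists_monoid_generator (α := P)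
  refine ⟨g, 1, fun w => ?_⟩
  obtain ⟨i, hi⟩ := Submonoid.mem_powers_iff _ _ |>.mp (hg w)
  exact ⟨i, 0, by simp [hi]⟩

theorem twoGen_quat (m : ℕ) [NeZero m] : TwoGen (QuaternionGroup m) := by
  haveI : NeZero (2 * m) := ⟨by
    have := NeZero.ne m
    omega⟩
  refine ⟨QuaternionGroup.a 1, QuaternionGroup.xa 0, fun w => ?_⟩
  cases w with
  | a i =>
    refine ⟨i.val, 0, ?_⟩
    rw [pow_zero, mul_one, QuaternionGroup.a_one_pow, ZMod.natCast_zmod_val]
  | xa i =>
    refine ⟨(-i).val, 1, ?_⟩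
    rw [pow_one, QuaternionGroup.a_one_pow, ZMod.natCast_zmod_val, QuaternionGroup.a_mul_xa]
    congr 1
    ring

theorem twoGen_of_equiv {P P' : Type*} [Group P] [Group P'] (e : P ≃* P') (h : TwoGen P') :
    TwoGen P := by
  obtain ⟨u, v, huv⟩ := h
  refine ⟨e.symm u, e.symm v, fun w => ?_⟩
  obtain ⟨i, j, hij⟩ := huv (e w)
  refine ⟨i, j, ?_⟩
  rw [← map_pow, ← map_pow, ← map_mul, ← hij]
  simp

theorem v4_sq : ∀ x : DihedralGroup 2, x ^ 2 = 1 := by decide
theorem v4_comm : ∀ x y : DihedralGroup 2, x * y = y * x := by decide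

theorem le_of_index_eq {G : Type*} [Group G] [Finite G] {H K : Subgroup G} (hle : H ≤ K)
    (h : H.index = K.index) : K ≤ H := by
  have h1 := Subgroup.relIndex_mul_index hle
  rw [h] at h1
  have h2 : K.index ≠ 0 := Subgroup.index_ne_zero_of_finite
  have h3 : H.relIndex K = 1 := by
    apply Nat.eq_of_mul_eq_mul_right (Nat.pos_of_ne_zero h2)
    rw [h1, one_mul]
  exact Subgroup.relIndex_eq_one.mp h3

theorem ker_eq_of_two_gen {G : Type*} [Group G] [Finite G] (P : Sylow 2 G) (hP : TwoGen P)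
    (f₁ f₂ : G →* DihedralGroup 2) (h₁ : Function.Surjective f₁) (h₂ : Function.Surjective f₂) :
    f₁.ker = f₂.ker := by
  let F := f₁.prod f₂
  let F' := F.rangeRestrict
  have hF' : Function.Surjective F' := F.rangeRestrict_surjective
  have hsq : ∀ e : F.range, e ^ 2 = 1 := by
    rintro ⟨_, g, rfl⟩
    apply Subtype.ext
    change (F g) ^ 2 = 1
    exact Prod.ext (v4_sq _) (v4_sq _)
  have hcomm : ∀ e e' : F.range, e * e' = e' * e := by
    rintro ⟨_, g, rfl⟩ ⟨_, g', rfl⟩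
    apply Subtype.ext
    change F g * F g' = F g' * F g
    exact Prod.ext (v4_comm _ _) (v4_comm _ _)
  have hpg : IsPGroup 2 F.range := fun e => ⟨1, by simpa using hsq e⟩
  have htop : ∀ e : F.range, ∃ w : P, F' (w : G) = e := by
    intro e
    let Q : Sylow 2 F.range := P.mapSurjective hF'
    have hQ : (Q : Subgroup F.range) = ⊤ :=
      (Q.is_maximal' (Q := ⊤) (hpg.of_equiv Subgroup.topEquiv.symm) le_top).symm
    have he : e ∈ (Q : Subgroup F.range) := by
      rw [hQ]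
      exact mem_top _
    rw [Sylow.coe_mapSurjective] at he
    obtain ⟨w, hw, rfl⟩ := he
    exact ⟨⟨w, hw⟩, rfl⟩
  obtain ⟨u, v, huv⟩ := hP
  have hcard : Nat.card F.range ≤ 4 := by
    let g : Fin 2 × Fin 2 → F.range := fun st => (F' (u : G)) ^ (st.1 : ℕ) * (F' (v : G)) ^ (st.2 : ℕ)
    have hg : Function.Surjective g := by
      intro e
      obtain ⟨w, rfl⟩ := htop e
      obtain ⟨i, j, hij⟩ := huv w
      refine ⟨(⟨i % 2, Nat.mod_lt _ (by norm_num)⟩, ⟨j % 2, Nat.mod_lt _ (by norm_num)⟩), ?_⟩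
      have h1 : (w : G) = (u : G) ^ i * (v : G) ^ j := by
        simpa using congrArg Subtype.val hij
      simp only [g]
      rw [← pow_eq_pow_mod i (hsq _), ← pow_eq_pow_mod j (hsq _), h1, map_mul, map_pow, map_pow]
    have := Nat.card_le_card_of_surjective g hg
    simpa using this
  have hker : F.ker = f₁.ker ⊓ f₂.ker := MonoidHom.ker_prod f₁ f₂
  have hi1 : f₁.ker.index = 4 := by
    rw [index_of_surj f₁ h₁, Nat.card_eq_fintype_card, DihedralGroup.card]
  have hi2 : f₂.ker.index = 4 := by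
    rw [index_of_surj f₂ h₂, Nat.card_eq_fintype_card, DihedralGroup.card]
  have hi : (f₁.ker ⊓ f₂.ker).index ≤ 4 := by
    rw [← hker, Subgroup.index_ker]
    exact hcard
  have hd1 : f₁.ker.index ∣ (f₁.ker ⊓ f₂.ker).index := Subgroup.index_dvd_of_le inf_le_left
  have hd2 : f₂.ker.index ∣ (f₁.ker ⊓ f₂.ker).index := Subgroup.index_dvd_of_le inf_le_right
  have hpos : (f₁.ker ⊓ f₂.ker).index ≠ 0 := Subgroup.index_ne_zero_of_finite
  have e1 : (f₁.ker ⊓ f₂.ker).index = 4 := by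
    have := Nat.le_of_dvd (Nat.pos_of_ne_zero hpos) hd1
    omega
  have l1 : f₁.ker ≤ f₁.ker ⊓ f₂.ker := le_of_index_eq inf_le_left (by rw [e1, hi1])
  have l2 : f₂.ker ≤ f₁.ker ⊓ f₂.ker := le_of_index_eq inf_le_right (by rw [e1, hi2])
  exact le_antisymm (l1.trans inf_le_right) (l2.trans inf_le_left)

/-- Uniqueness. -/
theorem unique_quot {G : Type*} [Group G] [Finite G] (hP : ∀ P : Sylow 2 G, TwoGen P)
    {N₁ N₂ : Subgroup G} (hn₁ : N₁.Normal) (hn₂ : N₂.Normal) (hz₁ : IsZGroup N₁)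
    (hz₂ : IsZGroup N₂) (h₁ : QT N₁) (h₂ : QT N₂) : N₁ = N₂ := by
  have hV : ∀ {N M : Subgroup G} (f : G →* DihedralGroup 2), Function.Surjective f → f.ker = N →
      M = ⊤ → IsZGroup M → False := by
    rintro N M f hf - rfl hZ
    haveI := hZ
    have h1 : IsZGroup G := IsZGroup.of_injective (f := (Subgroup.topEquiv (G := G)).symm.toMonoidHom)
      (Subgroup.topEquiv (G := G)).symm.injective
    exact not_z_v4 (IsZGroup.of_surjective hf)
  have hR : ∀ {N M : Subgroup G}, Rig N → M = ⊤ → IsZGroup M → False := by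
    rintro N M hr rfl hZ
    have h1 := le_of_rig hr inferInstance hZ
    have h2 := index_of_rig hr
    rw [top_le_iff] at h1
    rw [h1, Subgroup.index_top] at h2
    omega
  have hRV : ∀ {N M : Subgroup G} (f : G →* DihedralGroup 2), Function.Surjective f → f.ker = M →
      IsZGroup M → M.Normal → Rig N → False := by
    rintro N M f hf rfl hZ hM hr
    have h1 := le_of_rig hr hM hZ
    have h2 := index_of_rig hr
    have h3 : N.index ∣ f.ker.index := Subgroup.index_dvd_of_le h1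
    have h4 : f.ker.index = 4 := by
      rw [index_of_surj f hf, Nat.card_eq_fintype_card, DihedralGroup.card]
    rw [h4] at h3
    have := Nat.le_of_dvd (by norm_num) h3
    omega
  rcases qt_cases h₁ with a₁ | ⟨f₁, s₁, k₁⟩ | r₁ <;> rcases qt_cases h₂ with a₂ | ⟨f₂, s₂, k₂⟩ | r₂
  · rw [a₁, a₂]
  · exact (hV f₂ s₂ k₂ a₁ hz₁).elim
  · exact (hR r₂ a₁ hz₁).elim
  · exact (hV f₁ s₁ k₁ a₂ hz₂).elim
  · rw [← k₁, ← k₂]
    exact ker_eq_of_two_gen default (hP _) f₁ f₂ s₁ s₂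
  · exact (hRV f₁ s₁ k₁ hz₁ hn₁ r₂).elim
  · exact (hR r₁ a₂ hz₂).elim
  · exact (hRV f₂ s₂ k₂ hz₂ hn₂ r₁).elim
  · exact le_antisymm (le_of_rig r₂ hn₁ hz₁) (le_of_rig r₁ hn₂ hz₂)

end Cfsg.Agent.Lib.Zassen.QuotU
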