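import Cfsg.Agent.Lib.Zassen.SolQ8

/-!
# Solvable groups with cyclic or quaternion Sylow subgroups
-/

set_option autoImplicit false
set_option linter.unusedSectionVars false
set_option linter.style.haveILetI false

namespace Cfsg.Agent.Lib.Zassen.SolMain

open Subgroup QuaternionGroup
open scoped commutatorElement
open Cfsg.Agent.Lib.Zassen.QuotU Cfsg.Agent.Lib.Zassen.SolQ Cfsg.Agent.Lib.Zassen.SolQ8
open Cfsg.Agent.Lib.Zassen.QuatAut

universe u

/-- Generalized quaternion groups map onto the Klein four group with cyclic kernel. -/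
theorem quat_to_v4 (n : ℕ) : ∃ f : QuaternionGroup (2 ^ (n + 1)) →* DihedralGroup 2,
    Function.Surjective f ∧ IsCyclic f.ker := by
  haveI : NeZero (2 * 2 ^ (n + 1)) := ⟨by positivity⟩
  let φ : ZMod (2 * 2 ^ (n + 1)) →+* ZMod 2 := ZMod.castHom (Dvd.intro _ rfl) (ZMod 2)
  have hφ : Function.Surjective φ := ZMod.ringHom_surjective φ
  have hm : φ ((2 ^ (n + 1) : ℕ) : ZMod (2 * 2 ^ (n + 1))) = 0 := by
    rw [map_natCast]
    rw [ZMod.natCast_eq_zero_iff]
    exact Dvd.intro_left _ (pow_succ 2 n).symm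
  let g : QuaternionGroup (2 ^ (n + 1)) → DihedralGroup 2 := fun x =>
    match x with
    | a i => DihedralGroup.r (φ i)
    | xa i => DihedralGroup.sr (φ i)
  let f : QuaternionGroup (2 ^ (n + 1)) →* DihedralGroup 2 := MonoidHom.mk' g (by
    intro x y
    cases x with
    | a i =>
      cases y with
      | a j => simp [g, a_mul_a, map_add]
      | xa j => simp [g, a_mul_xa, map_sub]
    | xa i =>
      cases y with
      | a j => simp [g, xa_mul_a, map_add]
      | xa j =>
        simp only [g, xa_mul_xa, DihedralGroup.sr_mul_sr, map_sub, map_add]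
        rw [hm, zero_add])
  refine ⟨f, ?_, ?_⟩
  · intro y
    cases y with
    | r i =>
      obtain ⟨j, rfl⟩ := hφ i
      exact ⟨a j, rfl⟩
    | sr i =>
      obtain ⟨j, rfl⟩ := hφ i
      exact ⟨xa j, rfl⟩
  · have hle : f.ker ≤ Subgroup.zpowers (a 1 : QuaternionGroup (2 ^ (n + 1))) := by
      intro x hx
      cases x with
      | a i =>
        rw [Subgroup.mem_zpowers_iff]
        refine ⟨(i.val : ℤ), ?_⟩
        rw [zpow_natCast, a_one_pow, ZMod.natCast_zmod_val]
      | xa i =>
        exfalso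
        have h1 : f (xa i) = 1 := hx
        have h2 : DihedralGroup.sr (φ i) = (1 : DihedralGroup 2) := h1
        rw [DihedralGroup.one_def] at h2
        cases h2
    exact Subgroup.isCyclic_of_le hle

/-- A surjection onto the Klein four group for a group isomorphic to a generalized quaternion group. -/
theorem exists_of_quat {G : Type*} [Group G] [Finite G] (n : ℕ)
    (e : G ≃* QuaternionGroup (2 ^ (n + 1))) :
    ∃ N : Subgroup G, N.Normal ∧ IsZGroup N ∧ QT N := by
  obtain ⟨f, hf, hc⟩ := quat_to_v4 n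
  let g : G →* DihedralGroup 2 := f.comp e.toMonoidHom
  refine ⟨g.ker, inferInstance, ?_, Or.inr (Or.inl ⟨g, hf.comp e.surjective, rfl⟩)⟩
  haveI : IsCyclic g.ker := by
    let h : g.ker →* f.ker := (e.toMonoidHom.comp g.ker.subtype).codRestrict f.ker (fun x => x.2)
    have hi : Function.Injective h := by
      intro x y hxy
      apply Subtype.ext
      apply e.injective
      exact congrArg Subtype.val hxy
    exact isCyclic_of_injective h hi
  infer_instance

/-- The case without normal subgroups of odd order. -/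
theorem base_case {G : Type*} [Group G] [Finite G] [Group.IsSolvable G] (h2 : H2 G) (hodd : Hodd G)
    (hO : ∀ K : Subgroup G, K.Normal → ¬ 2 ∣ Nat.card K → K = ⊥) (hnz : ¬ IsZGroup G) :
    ∃ N : Subgroup G, N.Normal ∧ IsZGroup N ∧ QT N := by
  by_cases hG2 : IsPGroup 2 G
  · rcases h2 ⊤ (hG2.of_equiv Subgroup.topEquiv.symm) with h1 | ⟨n, ⟨e⟩⟩
    · exfalso
      apply hnz
      haveI : IsCyclic G := isCyclic_of_surjective _ (Subgroup.topEquiv (G := G)).surjective
      infer_instance
    · let e' : G ≃* QuaternionGroup (2 ^ n) := Subgroup.topEquiv.symm.trans e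
      rcases n with _ | n
      · exfalso
        apply hnz
        haveI : IsCyclic (QuaternionGroup (2 ^ 0)) := quaternionGroup_one_isCyclic
        haveI : IsCyclic G := isCyclic_of_surjective _ e'.symm.surjective
        infer_instance
      · exact exists_of_quat n e'
  · obtain ⟨p, hp, hp2, hdvd⟩ : ∃ p : ℕ, p.Prime ∧ p ≠ 2 ∧ p ∣ Nat.card G := by
      by_contra hcon
      push Not at hcon
      exact hG2 (isPGroup_of_no_odd G (fun p h1 h3 => hcon p h1 h3))
    haveI : Fact p.Prime := ⟨hp⟩
    obtain ⟨y, hy⟩ := exists_prime_orderOf_dvd_card' (G := G) p hdvd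
    obtain ⟨R, hRn, hR2, hRmax⟩ := exists_max_two G
    have hC := centralizer_le hO hRn hRmax
    haveI := hRn
    let σ : MulAut R := MulAut.conjNormal y
    have hσ : σ ^ p = 1 := by
      change (MulAut.conjNormal y) ^ p = 1
      rw [← map_pow, ← hy, pow_orderOf_eq_one, map_one]
    have hodd' : Odd p := hp.odd_of_ne_two hp2
    have hσ1 : σ ≠ 1 := by
      intro h
      have hyC : y ∈ centralizer (R : Set G) := by
        rw [mem_centralizer_iff]
        intro r hr
        have h1 : σ ⟨r, hr⟩ = ⟨r, hr⟩ := by rw [h]; rfl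
        have h3 : y * r * y⁻¹ = r := congrArg Subtype.val h1
        exact (mul_inv_eq_iff_eq_mul.mp h3).symm
      obtain ⟨k, hk⟩ := hR2 ⟨y, hC hyC⟩
      have hk' : y ^ 2 ^ k = 1 := congrArg Subtype.val hk
      have h3 : p ∣ 2 ^ k := by
        rw [← hy]
        exact orderOf_dvd_of_pow_eq_one hk'
      exact hp2 ((Nat.prime_dvd_prime_iff_eq hp Nat.prime_two).mp (hp.dvd_of_dvd_pow h3))
    rcases h2 R hR2 with h1 | ⟨n, ⟨e⟩⟩
    · exact absurd (cyclic_odd_aut hR2 σ hodd' hσ) hσ1
    · obtain rfl | rfl | hn : n = 0 ∨ n = 1 ∨ 2 ≤ n := by omega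
      · exfalso
        haveI : IsCyclic (QuaternionGroup (2 ^ 0)) := quaternionGroup_one_isCyclic
        haveI : IsCyclic R := isCyclic_of_surjective _ e.symm.surjective
        exact absurd (cyclic_odd_aut hR2 σ hodd' hσ) hσ1
      · have e' : R ≃* Q8 := e
        have h48 := card_dvd_48 hRn hC e'
        have hp3 : p = 3 := by
          have h3 : p ∣ 48 := hdvd.trans h48
          have h4 : p ∣ 2 ^ 4 * 3 := by simpa using h3
          rcases (Nat.Prime.dvd_mul hp).mp h4 with h5 | h5
          · exact absurd ((Nat.prime_dvd_prime_iff_eq hp Nat.prime_two).mp (hp.dvd_of_dvd_pow h5)) hp2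
          · exact (Nat.prime_dvd_prime_iff_eq hp Nat.prime_three).mp h5
        subst hp3
        exact q8_main hRn hC e' hdvd
      · exfalso
        let σ' : MulAut (QuaternionGroup (2 ^ n)) := MulAut.congr e σ
        have hσ' : σ' ^ p = 1 := by
          rw [← map_pow, hσ, map_one]
        have h3 := quat_large_odd_aut n hn σ' hodd' hσ'
        apply hσ1
        exact (map_eq_one_iff _ (MulAut.congr e).injective).mp h3

theorem qt_comap {G G' : Type*} [Group G] [Group G'] {π : G →* G'} (hπ : Function.Surjective π)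
    {N' : Subgroup G'} (h : QT N') : QT (N'.comap π) := by
  rcases h with rfl | ⟨f, h1, rfl⟩ | ⟨f, h1, rfl⟩ | ⟨f, h1, rfl⟩ | ⟨f, h1, rfl⟩ | ⟨f, h1, rfl⟩
  · exact Or.inl (Subgroup.comap_top _)
  · exact Or.inr (Or.inl ⟨f.comp π, h1.comp hπ, (MonoidHom.comap_ker _ _).symm⟩)
  · exact Or.inr (Or.inr (Or.inl ⟨f.comp π, h1.comp hπ, (MonoidHom.comap_ker _ _).symm⟩))
  · exact Or.inr (Or.inr (Or.inr (Or.inl ⟨f.comp π, h1.comp hπ, (MonoidHom.comap_ker _ _).symm⟩)))
  · exact Or.inr (Or.inr (Or.inr (Or.inr (Or.inl ⟨f.comp π, h1.comp hπ, (MonoidHom.comap_ker _ _).symm⟩))))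
  · exact Or.inr (Or.inr (Or.inr (Or.inr (Or.inr ⟨f.comp π, h1.comp hπ, (MonoidHom.comap_ker _ _).symm⟩))))

/-- The existence statement for solvable groups. -/
theorem sol_exists : ∀ (n : ℕ) (G : Type u) [Group G] [Finite G] [Group.IsSolvable G],
    Nat.card G = n → H2 G → Hodd G → ∃ N : Subgroup G, N.Normal ∧ IsZGroup N ∧ QT N := by
  intro n
  induction n using Nat.strong_induction_on with
  | _ n ih =>
    intro G _ _ _ hn h2 hodd
    by_cases hO : ∀ K : Subgroup G, K.Normal → ¬ 2 ∣ Nat.card K → K = ⊥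
    · by_cases hz : IsZGroup G
      · exact ⟨⊤, inferInstance, inferInstance, Or.inl rfl⟩
      · exact base_case h2 hodd hO hz
    · push Not at hO
      obtain ⟨O, hOn, hOodd, hOne⟩ := hO
      haveI := hOn
      let π : G →* G ⧸ O := QuotientGroup.mk' O
      have hπ : Function.Surjective π := QuotientGroup.mk'_surjective O
      have hker : π.ker = O := QuotientGroup.ker_mk' O
      have hker2 : ¬ 2 ∣ Nat.card π.ker := by
        rw [hker]
        exact hOodd
      have hcard : Nat.card (G ⧸ O) < n := by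
        have h1 := Subgroup.card_eq_card_quotient_mul_card_subgroup O
        have h3 : 1 < Nat.card O := by
          have h4 : Nat.card O ≠ 1 := fun h => hOne (Subgroup.card_eq_one.mp h)
          have h5 : 0 < Nat.card O := Nat.card_pos
          omega
        have h6 : 0 < Nat.card (G ⧸ O) := Nat.card_pos
        rw [← hn, h1]
        nlinarith
      obtain ⟨N', hN'n, hN'z, hN'q⟩ := ih _ hcard (G ⧸ O) rfl (H2_of_surj π hπ hker2 h2)
        (Hodd_of_surj π hπ hodd)
      exact ⟨N'.comap π, hN'n.comap π, z_of_pullback π hker2 hodd N' hN'z, qt_comap hπ hN'q⟩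

end Cfsg.Agent.Lib.Zassen.SolMain
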