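import Cfsg.Agent.Lib.Zassen.QuotU
import Cfsg.Agent.Lib.Zassen.QuatAut

/-!
# Reductions for solvable groups with cyclic or quaternion Sylow subgroups
-/

set_option autoImplicit false
set_option linter.unusedSectionVars false
set_option linter.style.haveILetI false

namespace Cfsg.Agent.Lib.Zassen.SolQ

open Subgroup
open scoped commutatorElement
open Cfsg.Agent.Lib.Zassen.QuotU

/-- All `2`-subgroups are cyclic or generalized quaternion. -/
def H2 (G : Type*) [Group G] : Prop :=
  ∀ Q : Subgroup G, IsPGroup 2 Q → IsCyclic Q ∨ ∃ n : ℕ, Nonempty (Q ≃* QuaternionGroup (2 ^ n))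

/-- All `q`-subgroups are cyclic for `q` odd. -/
def Hodd (G : Type*) [Group G] : Prop :=
  ∀ q : ℕ, q.Prime → q ≠ 2 → ∀ Q : Subgroup G, IsPGroup q Q → IsCyclic Q

variable {G G' : Type*} [Group G] [Group G'] [Finite G]

/-- Subgroups of prime power order lift along surjections. -/
theorem lift_pgroup (f : G →* G') (hf : Function.Surjective f) {p : ℕ} [Fact p.Prime]
    (Q' : Subgroup G') (hQ' : IsPGroup p Q') : ∃ Q : Subgroup G, IsPGroup p Q ∧ Q.map f = Q' := by
  let Y : Subgroup G := Q'.comap f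
  let g : Y →* Q' := (f.comp Y.subtype).codRestrict Q' (fun y => y.2)
  have hg : Function.Surjective g := by
    rintro ⟨x, hx⟩
    obtain ⟨y, rfl⟩ := hf x
    exact ⟨⟨y, hx⟩, rfl⟩
  let P : Sylow p Y := default
  let R : Sylow p Q' := P.mapSurjective hg
  have hR : (R : Subgroup Q') = ⊤ :=
    (R.is_maximal' (Q := ⊤) (hQ'.of_equiv Subgroup.topEquiv.symm) le_top).symm
  refine ⟨(P : Subgroup Y).map Y.subtype, P.2.map _, le_antisymm ?_ ?_⟩
  · rintro _ ⟨_, ⟨y, -, rfl⟩, rfl⟩
    exact y.2
  · intro x hx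
    have h1 : (⟨x, hx⟩ : Q') ∈ (R : Subgroup Q') := by
      rw [hR]
      exact mem_top _
    rw [Sylow.coe_mapSurjective] at h1
    obtain ⟨y, hy, e⟩ := h1
    exact ⟨y, ⟨y, hy, rfl⟩, congrArg Subtype.val e⟩

omit [Finite G] in
/-- An element of `2`-power order in a subgroup of odd order is trivial. -/
theorem eq_one_of_odd [Finite G] {K : Subgroup G} (hK : ¬ 2 ∣ Nat.card K) {x : G} (hx : x ∈ K) {k : ℕ}
    (hk : x ^ 2 ^ k = 1) : x = 1 := by
  have h1 : orderOf x ∣ 2 ^ k := orderOf_dvd_of_pow_eq_one hk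
  have h2 : orderOf x ∣ Nat.card K := by
    have : orderOf (⟨x, hx⟩ : K) = orderOf x := Subgroup.orderOf_mk x hx
    rw [← this]
    exact orderOf_dvd_natCard _
  have h3 : Nat.Coprime (Nat.card K) (2 ^ k) :=
    Nat.Coprime.pow_right k ((Nat.Prime.coprime_iff_not_dvd Nat.prime_two).mpr hK).symm
  exact orderOf_eq_one_iff.mp (Nat.eq_one_of_dvd_coprimes h3 h2 h1)

/-- The hypothesis on `2`-subgroups passes to quotients by subgroups of odd order. -/
theorem H2_of_surj (f : G →* G') (hf : Function.Surjective f) (hker : ¬ 2 ∣ Nat.card f.ker)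
    (h : H2 G) : H2 G' := by
  intro Q' hQ'
  obtain ⟨Q, hQ, rfl⟩ := lift_pgroup f hf Q' hQ'
  have hinj : Function.Injective (f.subgroupMap Q) := by
    rw [injective_iff_map_eq_one]
    rintro ⟨x, hx⟩ hfx
    have hfx' : f x = 1 := congrArg Subtype.val hfx
    obtain ⟨k, hk⟩ := hQ ⟨x, hx⟩
    have hk' : x ^ 2 ^ k = 1 := congrArg Subtype.val hk
    exact Subtype.ext (eq_one_of_odd hker (MonoidHom.mem_ker.mpr hfx') hk')
  have hsurj := f.subgroupMap_surjective Q
  let e : Q ≃* Q.map f := MulEquiv.ofBijective (f.subgroupMap Q) ⟨hinj, hsurj⟩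
  rcases h Q hQ with h1 | ⟨n, ⟨e'⟩⟩
  · left
    exact isCyclic_of_surjective _ e.surjective
  · right
    exact ⟨n, ⟨e.symm.trans e'⟩⟩

/-- The hypothesis on odd subgroups passes to quotients. -/
theorem Hodd_of_surj (f : G →* G') (hf : Function.Surjective f) (h : Hodd G) : Hodd G' := by
  intro q hq hq2 Q' hQ'
  haveI : Fact q.Prime := ⟨hq⟩
  obtain ⟨Q, hQ, rfl⟩ := lift_pgroup f hf Q' hQ'
  haveI := h q hq hq2 Q hQ
  exact isCyclic_of_surjective _ (f.subgroupMap_surjective Q)

/-- The pull-back of a subgroup with cyclic Sylow subgroups along a map with kernel of odd order. -/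
theorem z_of_pullback (f : G →* G') (hker : ¬ 2 ∣ Nat.card f.ker) (hodd : Hodd G) (N' : Subgroup G')
    (hN' : IsZGroup N') : IsZGroup (N'.comap f) := by
  refine ⟨fun p hp P => ?_⟩
  haveI : Fact p.Prime := ⟨hp⟩
  by_cases hp2 : p = 2
  · subst hp2
    let g : (P : Subgroup (N'.comap f)) →* N' :=
      (f.comp ((N'.comap f).subtype.comp (P : Subgroup (N'.comap f)).subtype)).codRestrict N'
        (fun y => y.1.2)
    have hg : Function.Injective g := by
      rw [injective_iff_map_eq_one]
      rintro ⟨⟨x, hx⟩, hxP⟩ h1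
      have h2 : f x = 1 := congrArg Subtype.val h1
      obtain ⟨k, hk⟩ := P.2 ⟨⟨x, hx⟩, hxP⟩
      have hk' : x ^ 2 ^ k = 1 := by
        simpa using congrArg (fun y : (P : Subgroup (N'.comap f)) => ((y : N'.comap f) : G)) hk
      have h3 := eq_one_of_odd hker (MonoidHom.mem_ker.mpr h2) hk'
      exact Subtype.ext (Subtype.ext h3)
    haveI : IsZGroup (P : Subgroup (N'.comap f)) := IsZGroup.of_injective hg
    have h4 : IsPGroup 2 (⊤ : Subgroup (P : Subgroup (N'.comap f))) :=
      P.2.of_equiv Subgroup.topEquiv.symm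
    haveI := h4.isCyclic_of_isZGroup
    exact isCyclic_of_surjective _ (Subgroup.topEquiv (G := (P : Subgroup (N'.comap f)))).surjective
  · have h1 := hodd p hp hp2 ((P : Subgroup (N'.comap f)).map (N'.comap f).subtype) (P.2.map _)
    exact isCyclic_of_surjective _
      (Subgroup.equivMapOfInjective (P : Subgroup (N'.comap f)) (N'.comap f).subtype
        (N'.comap f).subtype_injective).symm.surjective

/-- The largest normal `2`-subgroup. -/
theorem exists_max_two (G : Type*) [Group G] [Finite G] :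
    ∃ R : Subgroup G, R.Normal ∧ IsPGroup 2 R ∧
      ∀ R' : Subgroup G, R'.Normal → IsPGroup 2 R' → R' ≤ R := by
  let s : Set (Subgroup G) := {R | R.Normal ∧ IsPGroup 2 R}
  have h0 : (⊥ : Subgroup G) ∈ s := ⟨inferInstance, IsPGroup.of_bot⟩
  obtain ⟨R, hR⟩ := (Set.toFinite s).exists_maximal ⟨⊥, h0⟩
  refine ⟨R, hR.1.1, hR.1.2, fun R' h1 h2 => ?_⟩
  haveI := h1
  have h3 : R ⊔ R' ∈ s := by
    haveI := hR.1.1
    exact ⟨inferInstance, hR.1.2.to_sup_of_normal_right h2⟩
  have h4 := hR.2 h3 le_sup_left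
  exact le_sup_right.trans h4

/-- A subgroup all of whose prime divisors of the order are `2`. -/
theorem isPGroup_of_no_odd (D : Type*) [Group D] [Finite D]
    (h : ∀ p : ℕ, p.Prime → p ≠ 2 → ¬ p ∣ Nat.card D) : IsPGroup 2 D := by
  apply IsPGroup.of_card (n := (Nat.card D).primeFactorsList.length)
  apply Nat.eq_prime_pow_of_unique_prime_dvd Nat.card_pos.ne'
  intro d hd hdvd
  by_contra hne
  exact h d hd hne hdvd

/-- Perfect subgroups of solvable groups are trivial. -/
theorem eq_bot_of_perfect [Group.IsSolvable G] {D : Subgroup G} (h : D ≤ ⁅D, D⁆) : D = ⊥ := by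
  have h2 : ∀ n, D ≤ derivedSeries G n := by
    intro n
    induction n with
    | zero => exact le_top
    | succ n ih =>
      rw [derivedSeries_succ]
      exact h.trans (Subgroup.commutator_mono ih ih)
  obtain ⟨n, hn⟩ := (Group.isSolvable_def G).mp inferInstance
  have h3 := h2 n
  rwa [hn, le_bot_iff] at h3

/-- The largest normal `2`-subgroup contains its centralizer if there is no normal subgroup of odd
order. -/
theorem centralizer_le [Group.IsSolvable G]
    (hO : ∀ K : Subgroup G, K.Normal → ¬ 2 ∣ Nat.card K → K = ⊥) {R : Subgroup G} (hRn : R.Normal)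
    (hRmax : ∀ R' : Subgroup G, R'.Normal → IsPGroup 2 R' → R' ≤ R) :
    centralizer (R : Set G) ≤ R := by
  by_contra hcon
  let s : Set (Subgroup G) := {D | D.Normal ∧ D ≤ centralizer (R : Set G) ∧ ¬ D ≤ R}
  have hCs : centralizer (R : Set G) ∈ s := ⟨inferInstance, le_refl _, hcon⟩
  obtain ⟨D, hD⟩ := (Set.toFinite s).exists_minimal ⟨_, hCs⟩
  obtain ⟨⟨hDn, hDC, hDR⟩, hDmin⟩ := hD
  haveI := hDn
  have hDc : ⁅D, D⁆ ≤ R := by
    by_contra h
    have h1 : ⁅D, D⁆ ∈ s :=
      ⟨inferInstance, (Subgroup.commutator_le_left D D).trans hDC, h⟩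
    have h2 := hDmin h1 (Subgroup.commutator_le_left D D)
    have h3 := eq_bot_of_perfect h2
    apply hDR
    rw [h3]
    exact bot_le
  -- nilpotency
  have hnil : Group.IsNilpotent D := by
    rw [Subgroup.isNilpotent_iff_lowerCentralSeries]
    refine ⟨2, ?_⟩
    change ⁅⁅D, D⁆, D⁆ = ⊥
    rw [Subgroup.commutator_eq_bot_iff_le_centralizer]
    intro x hx
    rw [mem_centralizer_iff]
    intro y hy
    exact (mem_centralizer_iff.mp (hDC hy) x (hDc hx)).symm
  haveI := hnil
  have hD2 : IsPGroup 2 D := by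
    apply isPGroup_of_no_odd
    intro p hp hp2 hdvd
    haveI : Fact p.Prime := ⟨hp⟩
    let P : Sylow p D := default
    have hne := P.ne_bot_of_dvd_card hdvd
    have hPn : (P : Subgroup D).Normal := inferInstance
    have hPc := Sylow.characteristic_of_normal P hPn
    have hQn : ((P : Subgroup D).map D.subtype).Normal := by
      constructor
      rintro _ ⟨x, hx, rfl⟩ g
      refine ⟨MulAut.conjNormal g x, ?_, ?_⟩
      · have h1 := hPc.fixed (MulAut.conjNormal g)
        rw [← h1] at hx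
        exact hx
      · simp
    have hcard : ¬ 2 ∣ Nat.card ((P : Subgroup D).map D.subtype) := by
      rw [Subgroup.card_map_of_injective D.subtype_injective]
      obtain ⟨k, hk⟩ := P.2.exists_card_eq
      rw [hk]
      intro h2
      have := (Nat.prime_two.dvd_of_dvd_pow h2)
      exact hp2 ((Nat.prime_dvd_prime_iff_eq Nat.prime_two hp).mp this).symm
    have h3 := hO _ hQn hcard
    rw [Subgroup.map_eq_bot_iff, D.ker_subtype, le_bot_iff] at h3
    exact hne h3
  exact hDR (hRmax D hDn hD2)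

end Cfsg.Agent.Lib.Zassen.SolQ
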