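import Cfsg.Agent.Lib.Zassen.SolQ
import Cfsg.Agent.Lib.PermMod.MinNormal

/-!
# Groups with a self-centralizing normal quaternion subgroup of order eight
-/

set_option autoImplicit false
set_option linter.unusedSectionVars false
set_option linter.style.haveILetI false

namespace Cfsg.Agent.Lib.Zassen.SolQ8

open Subgroup QuaternionGroup
open scoped commutatorElement
open Cfsg.Agent.Lib.Zassen.QuotU Cfsg.Agent.Lib.Zassen.SolQ

/-- The quaternion group of order eight. -/
abbrev Q8 := QuaternionGroup 2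

theorem q8_invol : ∀ w : Q8, w ^ 2 = 1 → w = 1 ∨ w = a 2 := by decide
theorem q8_center : ∀ w : Q8, w * a 1 = a 1 * w → w * xa 0 = xa 0 * w → w = 1 ∨ w = a 2 := by decide
theorem q8_gens : ∀ w : Q8, ∃ i j : Fin 4, w = (a 1) ^ (i : ℕ) * (xa 0) ^ (j : ℕ) := by decide
theorem q8_inner : ∀ w₁ w₂ : Q8, (w₁ = 1 ∨ w₁ = a 2) → (w₂ = 1 ∨ w₂ = a 2) →
    ∃ r : Q8, r * a 1 * r⁻¹ = w₁ * a 1 ∧ r * xa 0 * r⁻¹ = w₂ * xa 0 := by decide
theorem q8_z : (a 2 : Q8) ^ 2 = 1 ∧ (a 2 : Q8) ≠ 1 := by decide
theorem q8_card : Nat.card Q8 = 8 := by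
  rw [Nat.card_eq_fintype_card, QuaternionGroup.card]

variable {G : Type*} [Group G] [Finite G] {R : Subgroup G}

/-- The central involution. -/
def zz (e : R ≃* Q8) : G := (e.symm (a 2) : R)

theorem zz_mem (e : R ≃* Q8) : zz e ∈ R := (e.symm (a 2)).2

theorem e_zz (e : R ≃* Q8) : e ⟨zz e, zz_mem e⟩ = a 2 := by
  have : (⟨zz e, zz_mem e⟩ : R) = e.symm (a 2) := rfl
  rw [this]
  simp

theorem zz_ne_one (e : R ≃* Q8) : zz e ≠ 1 := by
  intro h
  have h1 : (e.symm (a 2) : R) = 1 := Subtype.ext h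
  have h2 : (a 2 : Q8) = 1 := by
    have := congrArg e h1
    simpa using this
  exact q8_z.2 h2

theorem zz_sq (e : R ≃* Q8) : zz e ^ 2 = 1 := by
  have h1 : (e.symm (a 2)) ^ 2 = 1 := by
    rw [← map_pow, q8_z.1, map_one]
  exact congrArg Subtype.val h1

/-- The involution is central. -/
theorem zz_central (hRn : R.Normal) (e : R ≃* Q8) (g : G) : g * zz e = zz e * g := by
  let r : R := ⟨g * zz e * g⁻¹, hRn.conj_mem _ (zz_mem e) g⟩
  have hr2 : r ^ 2 = 1 := by
    apply Subtype.ext
    change (g * zz e * g⁻¹) ^ 2 = 1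
    rw [conj_pow, zz_sq, mul_one, mul_inv_cancel]
  have hr1 : r ≠ 1 := by
    intro h
    have h1 : g * zz e * g⁻¹ = 1 := congrArg Subtype.val h
    have h2 : zz e = 1 := by
      have : zz e = g⁻¹ * (g * zz e * g⁻¹) * g := by group
      rw [this, h1]
      group
    exact zz_ne_one e h2
  have h3 : (e r) ^ 2 = 1 := by rw [← map_pow, hr2, map_one]
  rcases q8_invol _ h3 with h | h
  · exact absurd ((map_eq_one_iff e e.injective).mp h) hr1
  · have h4 : r = e.symm (a 2) := by
      rw [← h]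
      simp
    have h5 : g * zz e * g⁻¹ = zz e := congrArg Subtype.val h4
    calc g * zz e = (g * zz e * g⁻¹) * g := by group
      _ = zz e * g := by rw [h5]

/-- The centralizer. -/
theorem eq_of_mem_R_comm (e : R ≃* Q8) {x : G} (hxR : x ∈ R) (hx : ∀ r ∈ R, x * r = r * x) :
    x = 1 ∨ x = zz e := by
  have h1 : e ⟨x, hxR⟩ * a 1 = a 1 * e ⟨x, hxR⟩ := by
    have h2 : (⟨x, hxR⟩ : R) * e.symm (a 1) = e.symm (a 1) * ⟨x, hxR⟩ :=
      Subtype.ext (hx _ (e.symm (a 1)).2)
    have h3 := congrArg e h2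
    simpa using h3
  have h1' : e ⟨x, hxR⟩ * xa 0 = xa 0 * e ⟨x, hxR⟩ := by
    have h2 : (⟨x, hxR⟩ : R) * e.symm (xa 0) = e.symm (xa 0) * ⟨x, hxR⟩ :=
      Subtype.ext (hx _ (e.symm (xa 0)).2)
    have h3 := congrArg e h2
    simpa using h3
  rcases q8_center _ h1 h1' with h | h
  · left
    have := (map_eq_one_iff e e.injective).mp h
    exact congrArg Subtype.val this
  · right
    have h4 : (⟨x, hxR⟩ : R) = e.symm (a 2) := by
      rw [← h]
      simp
    exact congrArg Subtype.val h4

theorem card_two_of {K : Subgroup G} {z : G} (hz : z ∈ K) (hz1 : z ≠ 1)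
    (h : ∀ x ∈ K, x = 1 ∨ x = z) : Nat.card K = 2 := by
  rw [Nat.card_eq_two_iff]
  refine ⟨1, ⟨z, hz⟩, fun e => hz1 (congrArg Subtype.val e).symm, ?_⟩
  ext ⟨x, hx⟩
  simp only [Set.mem_insert_iff, Set.mem_singleton_iff, Set.mem_univ, iff_true]
  rcases h x hx with h1 | h1
  · left
    exact Subtype.ext h1
  · right
    exact Subtype.ext h1

theorem num_I {I : ℕ} (h12 : I ∣ 8) (hmod : I ≡ 1 [MOD 3]) (hne : I ≠ 1) : I = 4 := by
  have hle := Nat.le_of_dvd (by norm_num) h12
  unfold Nat.ModEq at hmod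
  interval_cases I <;> simp_all

theorem num_F {F : ℕ} (h12 : F ∣ 8) (hmod : 8 ≡ F [MOD 3]) : F = 2 ∨ F = 8 := by
  have hle := Nat.le_of_dvd (by norm_num) h12
  unfold Nat.ModEq at hmod
  interval_cases F <;> simp_all

section Main

variable (hRn : R.Normal) (hC : centralizer (R : Set G) ≤ R) (e : R ≃* Q8)

include hRn hC in
theorem mem_centralizer_cases {x : G} (hx : ∀ r ∈ R, x * r = r * x) : x = 1 ∨ x = zz e := by
  have hxC : x ∈ centralizer (R : Set G) := by
    rw [mem_centralizer_iff]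
    intro r hr
    exact (hx r hr).symm
  exact eq_of_mem_R_comm e (hC hxC) hx

include hRn hC e in
/-- The order of the group divides `48`. -/
theorem card_dvd_48 : Nat.card G ∣ 48 := by
  haveI := hRn
  let c : G →* MulAut R := MulAut.conjNormal
  have hker : Nat.card c.ker = 2 := by
    apply card_two_of (z := zz e)
    · rw [MonoidHom.mem_ker]
      ext r
      change zz e * r * (zz e)⁻¹ = r
      rw [← zz_central hRn e]
      simp
    · exact zz_ne_one e
    · intro x hx
      apply mem_centralizer_cases hRn hC e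
      intro r hr
      have h1 : c x = 1 := hx
      have h2 : c x ⟨r, hr⟩ = ⟨r, hr⟩ := by rw [h1]; rfl
      have h3 : x * r * x⁻¹ = r := congrArg Subtype.val h2
      calc x * r = (x * r * x⁻¹) * x := by group
        _ = r * x := by rw [h3]
  have hrange : Nat.card c.range ∣ 24 := by
    have h1 : Nat.card c.range ∣ Nat.card (MulAut R) := Subgroup.card_subgroup_dvd_card _
    have h2 : Nat.card (MulAut R) = Nat.card (MulAut Q8) := Nat.card_congr (MulAut.congr e).toEquiv
    rw [h2] at h1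
    exact h1.trans Cfsg.Agent.Lib.PermMod.MinNormal.card_mulAut_quaternion_dvd
  have h3 : Nat.card c.ker * Nat.card c.range = Nat.card G := by
    rw [← Subgroup.index_ker, Subgroup.card_mul_index]
  rw [← h3, hker]
  exact Nat.mul_dvd_mul_left 2 hrange


include hRn hC e in
/-- The possible orders. -/
theorem card_cases (h3 : 3 ∣ Nat.card G) : Nat.card G = 24 ∨ Nat.card G = 48 := by
  have h48 := card_dvd_48 hRn hC e
  have h8 : 8 ∣ Nat.card G := by
    have h1 : Nat.card R = 8 := by
      rw [Nat.card_congr e.toEquiv, q8_card]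
    rw [← h1]
    exact Subgroup.card_subgroup_dvd_card R
  have h24 : 24 ∣ Nat.card G := Nat.Coprime.mul_dvd_of_dvd_of_dvd (by norm_num) h8 h3
  obtain ⟨t, ht⟩ := h24
  rw [ht] at h48
  have hle := Nat.le_of_dvd (by norm_num) h48
  have ht0 : t ≠ 0 := by
    rintro rfl
    exact Nat.card_pos.ne' (by simpa using ht)
  have ht2 : t ≤ 2 := by omega
  have ht1 : 1 ≤ t := by omega
  interval_cases t
  · left
    exact ht
  · right
    exact ht

include hRn hC e in
theorem card_sylow3 (h3 : 3 ∣ Nat.card G) (S : Sylow 3 G) : Nat.card S = 3 := by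
  obtain ⟨k, hk⟩ := S.2.exists_card_eq
  have hne := S.ne_bot_of_dvd_card h3
  have hk0 : k ≠ 0 := by
    rintro rfl
    rw [pow_zero] at hk
    exact hne (Subgroup.card_eq_one.mp hk)
  have hdvd : 3 ^ k ∣ 48 := by
    rw [← hk]
    exact (Subgroup.card_subgroup_dvd_card _).trans (card_dvd_48 hRn hC e)
  have hk1 : k < 2 := by
    by_contra h2
    have : 3 ^ 2 ∣ 48 := (pow_dvd_pow 3 (by omega)).trans hdvd
    norm_num at this
  have : k = 1 := by omega
  rw [hk, this, pow_one]

include hRn hC e in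
theorem inf_sylow (h3 : 3 ∣ Nat.card G) (S : Sylow 3 G) {x : G} (hxR : x ∈ R)
    (hxS : x ∈ (S : Subgroup G)) : x = 1 := by
  have h1 : Nat.card R = 8 := by
    rw [Nat.card_congr e.toEquiv, q8_card]
  have h2 := card_sylow3 hRn hC e h3 S
  have h4 : R ⊓ (S : Subgroup G) = ⊥ := by
    apply disjoint_iff.mp
    apply Subgroup.disjoint_of_coprime_natCard
    rw [h1, h2]
    norm_num
  have h5 : x ∈ R ⊓ (S : Subgroup G) := ⟨hxR, hxS⟩
  rw [h4] at h5
  exact h5

include hRn hC e in
theorem comm_of_normalizes (h3 : 3 ∣ Nat.card G) (S : Sylow 3 G) {u : G} (huR : u ∈ R)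
    (huN : u ∈ normalizer ((S : Subgroup G) : Set G)) {s : G} (hs : s ∈ (S : Subgroup G)) :
    s * u = u * s := by
  have h1 : u * s * u⁻¹ ∈ (S : Subgroup G) := (mem_normalizer_iff.mp huN s).mp hs
  have h2 : u * s * u⁻¹ * s⁻¹ ∈ (S : Subgroup G) := Subgroup.mul_mem _ h1 (Subgroup.inv_mem _ hs)
  have h4 : u * s * u⁻¹ * s⁻¹ ∈ R := by
    have : u * s * u⁻¹ * s⁻¹ = u * (s * u⁻¹ * s⁻¹) := by group
    rw [this]
    exact R.mul_mem huR (hRn.conj_mem _ (R.inv_mem huR) s)
  have h5 := inf_sylow hRn hC e h3 S h4 h2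
  have h6 : u * s * u⁻¹ = s := mul_inv_eq_one.mp h5
  have h7 : u * s = s * u := mul_inv_eq_iff_eq_mul.mp h6
  exact h7.symm

include hRn hC e in
theorem not_centralize (h3 : 3 ∣ Nat.card G) (S : Sylow 3 G) :
    ¬ ∀ r ∈ R, ∀ s ∈ (S : Subgroup G), s * r = r * s := by
  intro h
  have hle : ∀ s ∈ (S : Subgroup G), s = 1 := by
    intro s hs
    have h1 : s ∈ centralizer (R : Set G) := by
      rw [mem_centralizer_iff]
      intro r hr
      exact (h r hr s hs).symm
    exact inf_sylow hRn hC e h3 S (hC h1) hs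
  have h2 : (S : Subgroup G) = ⊥ := (Subgroup.eq_bot_iff_forall _).mpr hle
  exact S.ne_bot_of_dvd_card h3 h2

include hRn hC e in
theorem n3_ne_one (h3 : 3 ∣ Nat.card G) : Nat.card (Sylow 3 G) ≠ 1 := by
  intro h1
  haveI : Subsingleton (Sylow 3 G) := (Nat.card_eq_one_iff_unique.mp h1).1
  let S : Sylow 3 G := default
  have hn : (S : Subgroup G).Normal := Sylow.normal_of_subsingleton S
  apply not_centralize hRn hC e h3 S
  intro r hr s hs
  exact comm_of_normalizes hRn hC e h3 S hr (by
    rw [Subgroup.normalizer_eq_top_iff.mpr hn]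
    exact mem_top _) hs

include hRn hC e in
/-- There are four Sylow `3`-subgroups. -/
theorem n3_eq (h3 : 3 ∣ Nat.card G) : Nat.card (Sylow 3 G) = 4 := by
  let S : Sylow 3 G := default
  have h1 := Sylow.card_eq_index_normalizer S
  have hmod : Nat.card (Sylow 3 G) ≡ 1 [MOD 3] := card_sylow_modEq_one 3 G
  have hne := n3_ne_one hRn hC e h3
  set I := (normalizer ((S : Subgroup G) : Set G)).index with hI
  have hN := Subgroup.card_mul_index (normalizer ((S : Subgroup G) : Set G))
  have h4 : 3 ∣ Nat.card (normalizer ((S : Subgroup G) : Set G)) := by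
    have h5 : (S : Subgroup G) ≤ (normalizer ((S : Subgroup G) : Set G)) := Subgroup.le_normalizer
    have h6 := Subgroup.card_dvd_of_le h5
    rwa [card_sylow3 hRn hC e h3 S] at h6
  have h7 : 2 ∣ Nat.card (normalizer ((S : Subgroup G) : Set G)) := by
    have hz : zz e ∈ normalizer ((S : Subgroup G) : Set G) := by
      rw [mem_normalizer_iff]
      intro s
      rw [← zz_central hRn e]
      simp
    have h8 : orderOf (⟨zz e, hz⟩ : normalizer ((S : Subgroup G) : Set G)) = 2 :=
      orderOf_eq_prime (Subtype.ext (zz_sq e)) (fun h => zz_ne_one e (congrArg Subtype.val h))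
    rw [← h8]
    exact orderOf_dvd_natCard _
  have h9 : 6 ∣ Nat.card (normalizer ((S : Subgroup G) : Set G)) :=
    Nat.Coprime.mul_dvd_of_dvd_of_dvd (by norm_num : Nat.Coprime 2 3) h7 h4
  have h10 : 6 * I ∣ 48 := by
    have h11 : 6 * I ∣ Nat.card G := by
      rw [← hN]
      exact Nat.mul_dvd_mul_right h9 I
    exact h11.trans (card_dvd_48 hRn hC e)
  have h12 : I ∣ 8 := by
    obtain ⟨t, ht⟩ := h10
    refine ⟨t, ?_⟩
    have : 6 * 8 = 6 * (I * t) := by
      rw [← mul_assoc, ← ht]
    exact Nat.eq_of_mul_eq_mul_left (by norm_num) this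
  rw [h1] at hmod hne ⊢
  change I ≡ 1 [MOD 3] at hmod
  change I ≠ 1 at hne
  change I = 4
  exact num_I h12 hmod hne

include hRn hC e in
/-- An element of `R` commuting with a Sylow `3`-subgroup lies in the centre of `R`. -/
theorem fix_count (h3 : 3 ∣ Nat.card G) (S : Sylow 3 G) {r : G} (hrR : r ∈ R)
    (hr : ∀ s ∈ (S : Subgroup G), s * r = r * s) : r = 1 ∨ r = zz e := by
  haveI := hRn
  let φ : (S : Subgroup G) →* MulAut R := (MulAut.conjNormal (H := R)).comp (S : Subgroup G).subtype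
  letI : MulAction (S : Subgroup G) R := MulAction.compHom R φ
  have hcong := S.2.card_modEq_card_fixedPoints R
  let F : Subgroup R := (centralizer ((S : Subgroup G) : Set G)).subgroupOf R
  have hset : MulAction.fixedPoints (S : Subgroup G) R = (F : Set R) := by
    ext x
    rw [MulAction.mem_fixedPoints]
    constructor
    · intro h
      change (x : G) ∈ centralizer _
      rw [mem_centralizer_iff]
      intro s hs
      have h1 : ((⟨s, hs⟩ : (S : Subgroup G)) • x : R) = x := h _
      have h2 : s * x * s⁻¹ = x := congrArg Subtype.val h1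
      exact (mul_inv_eq_iff_eq_mul.mp h2)
    · intro h s
      have h1 : (x : G) ∈ centralizer ((S : Subgroup G) : Set G) := h
      rw [mem_centralizer_iff] at h1
      apply Subtype.ext
      change (s : G) * x * (s : G)⁻¹ = x
      rw [h1 s s.2]
      group
  have hfix : Nat.card (MulAction.fixedPoints (S : Subgroup G) R) = Nat.card F := by
    rw [hset]
    rfl
  rw [hfix] at hcong
  have hR8 : Nat.card R = 8 := by
    rw [Nat.card_congr e.toEquiv, q8_card]
  rw [hR8] at hcong
  have hdvd : Nat.card F ∣ 8 := hR8 ▸ Subgroup.card_subgroup_dvd_card F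
  have hcases : Nat.card F = 2 ∨ Nat.card F = 8 := num_F hdvd hcong
  rcases hcases with h2 | h8
  · by_cases hr1 : r = 1
    · exact Or.inl hr1
    · right
      obtain ⟨y, hy, huniq⟩ := (Nat.card_eq_two_iff' (1 : F)).mp h2
      have hrF : (⟨r, hrR⟩ : R) ∈ F := by
        change r ∈ centralizer _
        rw [mem_centralizer_iff]
        intro s hs
        exact (hr s hs)
      have hzF : (⟨zz e, zz_mem e⟩ : R) ∈ F := by
        change zz e ∈ centralizer _
        rw [mem_centralizer_iff]
        intro s hs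
        exact (zz_central hRn e s)
      have e1 := huniq ⟨⟨r, hrR⟩, hrF⟩ (fun h => hr1 (congrArg (fun t : F => ((t : R) : G)) h))
      have e2 := huniq ⟨⟨zz e, zz_mem e⟩, hzF⟩
        (fun h => zz_ne_one e (congrArg (fun t : F => ((t : R) : G)) h))
      have e3 := e1.trans e2.symm
      exact congrArg (fun t : F => ((t : R) : G)) e3
  · exfalso
    have htop : F = ⊤ := Subgroup.eq_top_of_card_eq F (by rw [h8, hR8])
    apply not_centralize hRn hC e h3 S
    intro t ht s hs
    have h1 : (⟨t, ht⟩ : R) ∈ F := by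
      rw [htop]
      exact mem_top _
    have h2 : t ∈ centralizer ((S : Subgroup G) : Set G) := h1
    rw [mem_centralizer_iff] at h2
    exact h2 s hs

include hRn hC e in
/-- An element acting trivially on `R` modulo the centre lies in `R`. -/
theorem mem_of_comm_mod {k : G}
    (h : ∀ r ∈ R, k * r * k⁻¹ * r⁻¹ = 1 ∨ k * r * k⁻¹ * r⁻¹ = zz e) : k ∈ R := by
  let a' : R := e.symm (a 1)
  let x' : R := e.symm (xa 0)
  have hcase : ∀ t : R, ∃ w : Q8, (w = 1 ∨ w = a 2) ∧ k * (t : G) * k⁻¹ = (e.symm w : G) * t := by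
    intro t
    rcases h t t.2 with h1 | h1
    · refine ⟨1, Or.inl rfl, ?_⟩
      have : k * (t : G) * k⁻¹ = t := mul_inv_eq_one.mp h1
      simpa using this
    · refine ⟨a 2, Or.inr rfl, ?_⟩
      have : k * (t : G) * k⁻¹ = zz e * t := mul_inv_eq_iff_eq_mul.mp h1
      exact this
  obtain ⟨w₁, hw₁, h1⟩ := hcase a'
  obtain ⟨w₂, hw₂, h2⟩ := hcase x'
  obtain ⟨r, hr1, hr2⟩ := q8_inner w₁ w₂ hw₁ hw₂
  let r₀ : R := e.symm r
  have hr1' : (r₀ : G) * a' * (r₀ : G)⁻¹ = (e.symm w₁ : G) * a' := by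
    have h3 := congrArg e.symm hr1
    simp only [map_mul, map_inv] at h3
    exact congrArg Subtype.val h3
  have hr2' : (r₀ : G) * x' * (r₀ : G)⁻¹ = (e.symm w₂ : G) * x' := by
    have h3 := congrArg e.symm hr2
    simp only [map_mul, map_inv] at h3
    exact congrArg Subtype.val h3
  let y : G := (r₀ : G)⁻¹ * k
  have hya : y * a' = a' * y := by
    have h4 : k * (a' : G) * k⁻¹ = (r₀ : G) * a' * (r₀ : G)⁻¹ := by rw [h1, hr1']
    have h5 : y * a' * y⁻¹ = a' := by
      simp only [y, mul_inv_rev, inv_inv]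
      calc (r₀ : G)⁻¹ * k * a' * (k⁻¹ * r₀) = (r₀ : G)⁻¹ * (k * a' * k⁻¹) * r₀ := by group
        _ = a' := by rw [h4]; group
    exact mul_inv_eq_iff_eq_mul.mp h5
  have hyx : y * x' = x' * y := by
    have h4 : k * (x' : G) * k⁻¹ = (r₀ : G) * x' * (r₀ : G)⁻¹ := by rw [h2, hr2']
    have h5 : y * x' * y⁻¹ = x' := by
      simp only [y, mul_inv_rev, inv_inv]
      calc (r₀ : G)⁻¹ * k * x' * (k⁻¹ * r₀) = (r₀ : G)⁻¹ * (k * x' * k⁻¹) * r₀ := by group
        _ = x' := by rw [h4]; group
    exact mul_inv_eq_iff_eq_mul.mp h5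
  have hyC : y ∈ centralizer (R : Set G) := by
    rw [mem_centralizer_iff]
    intro t ht
    obtain ⟨i, j, hij⟩ := q8_gens (e ⟨t, ht⟩)
    have h6 : t = (a' : G) ^ (i : ℕ) * (x' : G) ^ (j : ℕ) := by
      have h7 : (⟨t, ht⟩ : R) = a' ^ (i : ℕ) * x' ^ (j : ℕ) := by
        apply e.injective
        rw [hij, map_mul, map_pow, map_pow]
        simp [a', x']
      have := congrArg Subtype.val h7
      simpa using this
    rw [h6]
    have c1 : Commute y (a' : G) := hya
    have c2 : Commute y (x' : G) := hyx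
    exact ((c1.pow_right _).mul_right (c2.pow_right _)).symm
  have hy : y ∈ R := hC hyC
  have : k = r₀ * y := by simp [y]
  rw [this]
  exact R.mul_mem r₀.2 hy

/-- The permutation representation on the Sylow `3`-subgroups. -/
noncomputable def sylHom (G : Type*) [Group G] [Finite G] : G →* Equiv.Perm (Sylow 3 G) :=
  MulAction.toPermHom G (Sylow 3 G)

theorem mem_sylHom_ker {k : G} (hk : k ∈ (sylHom G).ker) (S : Sylow 3 G) :
    k ∈ (normalizer ((S : Subgroup G) : Set G)) := by
  have h1 : sylHom G k = 1 := hk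
  have h2 : sylHom G k S = S := by rw [h1]; rfl
  have h3 : k • S = S := h2
  exact Sylow.smul_eq_iff_mem_normalizer.mp h3

include hRn hC e in
theorem zz_mem_ker : zz e ∈ (sylHom G).ker := by
  rw [MonoidHom.mem_ker]
  ext1 S
  have h : zz e ∈ (normalizer ((S : Subgroup G) : Set G)) := by
    rw [mem_normalizer_iff]
    intro s
    rw [← zz_central hRn e]
    simp
  exact Sylow.smul_eq_iff_mem_normalizer.mpr h

include hRn hC e in
/-- The kernel of the representation on the Sylow `3`-subgroups. -/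
theorem ker_cases (h3 : 3 ∣ Nat.card G) {k : G} (hk : k ∈ (sylHom G).ker) : k = 1 ∨ k = zz e := by
  let S : Sylow 3 G := default
  have hR : ∀ u ∈ R, u ∈ (sylHom G).ker → u = 1 ∨ u = zz e := by
    intro u huR huK
    exact fix_count hRn hC e h3 S huR
      (fun s hs => comm_of_normalizes hRn hC e h3 S huR (mem_sylHom_ker huK S) hs)
  have hkR : k ∈ R := by
    apply mem_of_comm_mod hRn hC e
    intro r hr
    apply hR
    · have : k * r * k⁻¹ * r⁻¹ = (k * r * k⁻¹) * r⁻¹ := rfl
      exact R.mul_mem (hRn.conj_mem r hr k) (R.inv_mem hr)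
    · have : k * r * k⁻¹ * r⁻¹ = k * (r * k⁻¹ * r⁻¹) := by group
      rw [this]
      exact Subgroup.mul_mem _ hk ((inferInstance : (sylHom G).ker.Normal).conj_mem _
        (Subgroup.inv_mem _ hk) r)
  exact hR k hkR hk

include hRn hC e in
/-- The conclusion for groups with a self-centralizing quaternion subgroup of order eight. -/
theorem q8_main (h3 : 3 ∣ Nat.card G) : ∃ N : Subgroup G, N.Normal ∧ IsZGroup N ∧ QT N := by
  have hn := n3_eq hRn hC e h3
  let ε : Sylow 3 G ≃ Fin 4 := Finite.equivFinOfCardEq hn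
  let ψ : G →* Equiv.Perm (Fin 4) := (Equiv.permCongrHom ε).toMonoidHom.comp (sylHom G)
  have hker : ψ.ker = (sylHom G).ker := by
    ext x
    simp only [ψ, MonoidHom.mem_ker, MonoidHom.comp_apply]
    exact map_eq_one_iff _ (Equiv.permCongrHom ε).injective
  have hcardK : Nat.card ψ.ker = 2 := by
    rw [hker]
    exact card_two_of (zz_mem_ker hRn hC e) (zz_ne_one e) (fun x hx => ker_cases hRn hC e h3 hx)
  have hZ : IsZGroup ψ.ker := by
    haveI : Fact (Nat.Prime (Nat.card ψ.ker)) := ⟨by rw [hcardK]; exact Nat.prime_two⟩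
    haveI : IsCyclic ψ.ker := isCyclic_of_prime_card rfl
    infer_instance
  have hprod : Nat.card ψ.ker * Nat.card ψ.range = Nat.card G := by
    rw [← Subgroup.index_ker, Subgroup.card_mul_index]
  refine ⟨ψ.ker, inferInstance, hZ, ?_⟩
  rcases card_cases hRn hC e h3 with h | h
  · -- the alternating group
    rw [h, hcardK] at hprod
    have hr : Nat.card ψ.range = 12 := by omega
    have hidx : ψ.range.index = 2 := by
      have h1 := Subgroup.card_mul_index ψ.range
      rw [hr, Nat.card_eq_fintype_card (α := Equiv.Perm (Fin 4)), Fintype.card_perm] at h1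
      simp [Nat.factorial] at h1
      omega
    have halt := Equiv.Perm.eq_alternatingGroup_of_index_eq_two hidx
    have hmem : ∀ g, ψ g ∈ alternatingGroup (Fin 4) := fun g => halt ▸ ⟨g, rfl⟩
    right; right; left
    refine ⟨ψ.codRestrict _ hmem, ?_, ?_⟩
    · rintro ⟨y, hy⟩
      rw [← halt] at hy
      obtain ⟨g, rfl⟩ := hy
      exact ⟨g, rfl⟩
    · ext g
      simp only [MonoidHom.mem_ker]
      constructor
      · intro h1
        exact congrArg Subtype.val h1
      · intro h1
        exact Subtype.ext h1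
  · rw [h, hcardK] at hprod
    have hr : Nat.card ψ.range = 24 := by omega
    have htop : ψ.range = ⊤ := by
      apply Subgroup.eq_top_of_card_eq
      rw [hr, Nat.card_eq_fintype_card (α := Equiv.Perm (Fin 4)), Fintype.card_perm]
      simp [Nat.factorial]
    right; right; right; left
    exact ⟨ψ, MonoidHom.range_eq_top.mp htop, rfl⟩

end Main

end Cfsg.Agent.Lib.Zassen.SolQ8
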